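import Mathlib
import Cfsg.Prelude.Def_Solvable
import Cfsg.Prelude.Def_Transfer
import Cfsg.Prelude.Def_Local
import Cfsg.Prelude.Def_LocalEven

/-!
# Project ISO (S3044 + S3045): isolated p-minimal subgroups — interface

Notation: `S ∈ Syl_p(G)`, `S ≤ P`, `P` p-minimal, `L = ⟨N_G(S), p-minimal P' ≥ S, P' ≠ P⟩`,
`Q = O_p(L) = opOf p L`, `T = O^p(P) = resid p P`, `Y = ⟨T^G⟩`, `R_Y = O_p(Y) = opOf p Y`,
`Ȳ = ↥Y ⧸ pCore p ↥Y`.
-/

set_option autoImplicit false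

namespace Cfsg.Agent.Lib.Helper22.Iso

universe u

section defs

variable {G : Type u} [Group G]

/-- `O^p(P)` as a subgroup of `G`. -/
abbrev resid (p : ℕ) (P : Subgroup G) : Subgroup G := (Cfsg.pResidual p ↥P).map P.subtype

/-- `O_p(H)` as a subgroup of `G`. -/
abbrev opOf (p : ℕ) (H : Subgroup G) : Subgroup G := (Cfsg.pCore p ↥H).map H.subtype

/-- The hypotheses of S3044 / S3045. -/
structure Setup (p : ℕ) [Fact p.Prime] (S : Sylow p G) (P L Y : Subgroup G) : Prop where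
  hSP : (S : Subgroup G) ≤ P
  hPmin : Cfsg.IsPMinimal p ↥P
  hL : L = Subgroup.normalizer ((S : Subgroup G) : Set G) ⊔ ⨆ P' : {P' : Subgroup G // (S : Subgroup G) ≤ P' ∧ Cfsg.IsPMinimal p ↥P' ∧ P' ≠ P}, (P' : Subgroup G)
  hiso : ¬ opOf p L ≤ opOf p P
  hY : Y = Subgroup.normalClosure ((resid p P : Subgroup G) : Set G)

/-- K-facts, part 1 (basic). `T = O^p(P)`, `Q = O_p(L)`. -/
structure KFacts1 (p : ℕ) [Fact p.Prime] (S : Sylow p G) (L Y T Q : Subgroup G) : Prop where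
  TY : T ≤ Y
  SL : (S : Subgroup G) ≤ L
  QS : Q ≤ (S : Subgroup G)
  LQ : L ≤ Subgroup.normalizer (Q : Set G)
  RQ : opOf p Y ≤ Q
  TQ : ¬ T ≤ Subgroup.normalizer (Q : Set G)
  ST : (S : Subgroup G) ≤ Subgroup.normalizer (T : Set G)
  TS : ¬ T ≤ (S : Subgroup G)
  ncl : ∀ N : Subgroup G, N.Normal → T ≤ N → Y ≤ N

/-- K-facts, part 2 (consequences of the generation lemma). -/
structure KFacts2 (p : ℕ) [Fact p.Prime] (S : Sylow p G) (L Y T Q : Subgroup G) : Prop where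
  YL : Y ⊔ L = ⊤
  inv : ∀ W : Subgroup G, (S : Subgroup G) ≤ Subgroup.normalizer (W : Set G) → ¬ T ≤ W → W ≤ L
  gen : Y ≤ (Y ⊓ L) ⊔ T

/-- K-facts, part 3 (the key lemma). -/
structure KFacts3 (p : ℕ) [Fact p.Prime] (S : Sylow p G) (L Y T Q : Subgroup G) : Prop where
  key : ∀ N : Subgroup G, N.Normal → N ≤ Y → N ≠ Y → N ≤ L ∧ ⁅N, Y⁆ ≤ opOf p Y

/-- All K-facts. -/
structure KFacts (p : ℕ) [Fact p.Prime] (S : Sylow p G) (L Y T Q : Subgroup G) : Prop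
    extends KFacts1 p S L Y T Q, KFacts2 p S L Y T Q, KFacts3 p S L Y T Q

/-- Compatibility of an action `σ` of `G` on `Ȳ = Y / O_p(Y)` with conjugation. -/
def Compat (p : ℕ) (Y : Subgroup G) [Y.Normal] [(Cfsg.pCore p ↥Y).Normal]
    (σ : G →* MulAut (↥Y ⧸ Cfsg.pCore p ↥Y)) : Prop :=
  ∀ (g : G) (y : ↥Y), σ g (QuotientGroup.mk' (Cfsg.pCore p ↥Y) y) =
    QuotientGroup.mk' (Cfsg.pCore p ↥Y) (MulAut.conjNormal g y)

/-- Full preimage in `G` of a subgroup of `Ȳ` (the shape used in S3044). -/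
abbrev pull (p : ℕ) (Y : Subgroup G) [(Cfsg.pCore p ↥Y).Normal]
    (K : Subgroup (↥Y ⧸ Cfsg.pCore p ↥Y)) : Subgroup G :=
  (K.comap (QuotientGroup.mk' (Cfsg.pCore p ↥Y))).map Y.subtype

/-- Image in `Ȳ` of `W ∩ Y`. -/
abbrev push (p : ℕ) (Y : Subgroup G) [(Cfsg.pCore p ↥Y).Normal] (W : Subgroup G) :
    Subgroup (↥Y ⧸ Cfsg.pCore p ↥Y) :=
  (W.subgroupOf Y).map (QuotientGroup.mk' (Cfsg.pCore p ↥Y))

end defs

section abstract

variable {X Γ : Type u} [Group X] [Group Γ]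

/-- Abstract facts, part 1. `X = Ȳ`, `Γ = G` acting through `σ`; `Sg = S`, `Qg = Q`, `Lg = L`,
`Lb = push L`, `Tb = push T`. -/
structure AFacts1 (p : ℕ) (σ : Γ →* MulAut X) (Sg Qg Lg : Subgroup Γ) (Lb Tb : Subgroup X) : Prop where
  SL : Sg ≤ Lg
  QS : Qg ≤ Sg
  pS : IsPGroup p Sg
  LQ : ∀ l ∈ Lg, ∀ q ∈ Qg, l * q * l⁻¹ ∈ Qg
  Linv : ∀ l ∈ Lg, ∀ x ∈ Lb, σ l x ∈ Lb
  Tinv : ∀ s ∈ Sg, ∀ x ∈ Tb, σ s x ∈ Tb
  LT : Lb ⊔ Tb = ⊤
  Lne : Lb ≠ ⊤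
  Tne : Tb ≠ ⊥
  nc : ¬ ∀ q ∈ Qg, ∀ x : X, σ q x = x
  pcore : Cfsg.pCore p X = ⊥

/-- Abstract facts, part 2. -/
structure AFacts2 (p : ℕ) (σ : Γ →* MulAut X) (Sg Qg Lg : Subgroup Γ) (Lb Tb : Subgroup X) : Prop where
  key : ∀ N : Subgroup X, N.Normal → (∀ l ∈ Lg, ∀ x ∈ N, σ l x ∈ N) → N ≠ ⊤ →
    N ≤ Subgroup.center X ∧ N ≤ Lb
  Tnc : Tb ≤ Subgroup.center X → ∀ a b : X, a * b = b * a

/-- Abstract facts, part 3. -/
structure AFacts3 (p : ℕ) (σ : Γ →* MulAut X) (Sg Qg Lg : Subgroup Γ) (Lb Tb : Subgroup X) : Prop where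
  invn : ∀ W : Subgroup X, W.Normal → (∀ s ∈ Sg, ∀ x ∈ W, σ s x ∈ W) →
    Tb ≤ W ∨ ∀ q ∈ Qg, ∀ x ∈ W, σ q x = x
  invp : ¬ p ∣ Nat.card X → ∀ W : Subgroup X, (∀ s ∈ Sg, ∀ x ∈ W, σ s x ∈ W) →
    Tb ≤ W ∨ ∀ q ∈ Qg, ∀ x ∈ W, σ q x = x
  QL : ¬ p ∣ Nat.card X → ∀ q ∈ Qg, ∀ x ∈ Lb, σ q x = x

/-- All abstract facts. -/
structure AFacts (p : ℕ) (σ : Γ →* MulAut X) (Sg Qg Lg : Subgroup Γ) (Lb Tb : Subgroup X) : Prop
    extends AFacts1 p σ Sg Qg Lg Lb Tb, AFacts2 p σ Sg Qg Lg Lb Tb, AFacts3 p σ Sg Qg Lg Lb Tb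

end abstract

/-! ## Leaf packages inside `G` -/

/-- GEN: generation lemma. -/
def PkgGen : Prop :=
  ∀ {G : Type u} [Group G] [Finite G] {p : ℕ} [Fact p.Prime] (S : Sylow p G) (H : Subgroup G),
    (S : Subgroup G) ≤ H →
    H ≤ (Subgroup.normalizer ((S : Subgroup G) : Set G) ⊓ H) ⊔
      ⨆ P' : {P' : Subgroup G // (S : Subgroup G) ≤ P' ∧ P' ≤ H ∧ Cfsg.IsPMinimal p ↥P'}, (P' : Subgroup G)

/-- PMIN: normal subgroups of a p-minimal group not containing `O^p`. -/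
def PkgPmin : Prop :=
  ∀ {G : Type u} [Group G] [Finite G] {p : ℕ} [Fact p.Prime] (S : Sylow p G) (P : Subgroup G),
    (S : Subgroup G) ≤ P → Cfsg.IsPMinimal p ↥P →
    ∀ N : Subgroup G, N ≤ P → P ≤ Subgroup.normalizer (N : Set G) → ¬ resid p P ≤ N →
      N ⊓ (S : Subgroup G) ≤ opOf p P

/-- RES: basic facts on `O^p(P)`. -/
def PkgRes : Prop :=
  ∀ {G : Type u} [Group G] [Finite G] {p : ℕ} [Fact p.Prime] (S : Sylow p G) (P : Subgroup G),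
    (S : Subgroup G) ≤ P →
    resid p P ≤ P ∧ P ≤ Subgroup.normalizer (resid p P : Set G) ∧
    P ≤ resid p P ⊔ (S : Subgroup G) ∧
    (∀ W : Subgroup G, (S : Subgroup G) ≤ Subgroup.normalizer (W : Set G) →
      P ≤ W ⊔ (S : Subgroup G) → resid p P ≤ W) ∧
    (Cfsg.IsPMinimal p ↥P → ¬ resid p P ≤ (S : Subgroup G))

/-- YT: `Y = T·O_p(Y)` forces `Y = T`. -/
def PkgYT : Prop :=
  ∀ {G : Type u} [Group G] [Finite G] {p : ℕ} [Fact p.Prime] (S : Sylow p G) (P Y : Subgroup G),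
    (S : Subgroup G) ≤ P → Y = Subgroup.normalClosure ((resid p P : Subgroup G) : Set G) →
    Y ≤ resid p P ⊔ opOf p Y → resid p P = Y

/-! ## K-packages -/

def PkgK1 : Prop :=
  ∀ {G : Type u} [Group G] [Finite G] {p : ℕ} [Fact p.Prime] (S : Sylow p G) (P L Y : Subgroup G),
    Setup p S P L Y → KFacts1 p S L Y (resid p P) (opOf p L)

def PkgK2 : Prop :=
  ∀ {G : Type u} [Group G] [Finite G] {p : ℕ} [Fact p.Prime] (S : Sylow p G) (P L Y : Subgroup G),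
    Setup p S P L Y → KFacts2 p S L Y (resid p P) (opOf p L)

def PkgK3 : Prop :=
  ∀ {G : Type u} [Group G] [Finite G] {p : ℕ} [Fact p.Prime] (S : Sylow p G) (P L Y : Subgroup G),
    Setup p S P L Y → KFacts3 p S L Y (resid p P) (opOf p L)

/-! ## Dictionary packages (from `G` to `Ȳ`) -/

/-- ACT: the conjugation action of `G` on `Ȳ`. -/
def PkgAct : Prop :=
  ∀ {G : Type u} [Group G] (p : ℕ) (Y : Subgroup G) [Y.Normal] [(Cfsg.pCore p ↥Y).Normal],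
    ∃ σ : G →* MulAut (↥Y ⧸ Cfsg.pCore p ↥Y), Compat p Y σ

def PkgDict1 : Prop :=
  ∀ {G : Type u} [Group G] [Finite G] {p : ℕ} [Fact p.Prime] (S : Sylow p G) (L Y T Q : Subgroup G)
    [Y.Normal] [(Cfsg.pCore p ↥Y).Normal] (σ : G →* MulAut (↥Y ⧸ Cfsg.pCore p ↥Y)),
    Compat p Y σ → KFacts p S L Y T Q →
    AFacts1 p σ (S : Subgroup G) Q L (push p Y L) (push p Y T)

def PkgDict2 : Prop :=
  ∀ {G : Type u} [Group G] [Finite G] {p : ℕ} [Fact p.Prime] (S : Sylow p G) (L Y T Q : Subgroup G)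
    [Y.Normal] [(Cfsg.pCore p ↥Y).Normal] (σ : G →* MulAut (↥Y ⧸ Cfsg.pCore p ↥Y)),
    Compat p Y σ → KFacts p S L Y T Q →
    AFacts2 p σ (S : Subgroup G) Q L (push p Y L) (push p Y T)

def PkgDict3 : Prop :=
  ∀ {G : Type u} [Group G] [Finite G] {p : ℕ} [Fact p.Prime] (S : Sylow p G) (L Y T Q : Subgroup G)
    [Y.Normal] [(Cfsg.pCore p ↥Y).Normal] (σ : G →* MulAut (↥Y ⧸ Cfsg.pCore p ↥Y)),
    Compat p Y σ → KFacts p S L Y T Q →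
    AFacts3 p σ (S : Subgroup G) Q L (push p Y L) (push p Y T)

/-- BACK: translating the abstract conclusions back to `G`. -/
def PkgBack : Prop :=
  ∀ {G : Type u} [Group G] [Finite G] {p : ℕ} [Fact p.Prime] (Y T : Subgroup G)
    [Y.Normal] [(Cfsg.pCore p ↥Y).Normal] (σ : G →* MulAut (↥Y ⧸ Cfsg.pCore p ↥Y)),
    Compat p Y σ →
    (T ≤ Y → push p Y T = ⊤ → Y ≤ T ⊔ opOf p Y) ∧
    (∀ (g : G) (K : Subgroup (↥Y ⧸ Cfsg.pCore p ↥Y)),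
       pull p Y (K.map (σ g).toMonoidHom) = (pull p Y K).map (MulAut.conj g).toMonoidHom)

/-! ## Abstract packages (pure group theory in `X` with an action of `Γ`) -/

/-- ABS-B: the nilpotent case. -/
def PkgAbsB : Prop :=
  ∀ {X Γ : Type u} [Group X] [Finite X] [Group Γ] [Finite Γ] {p : ℕ} [Fact p.Prime]
    (σ : Γ →* MulAut X) (Sg Qg Lg : Subgroup Γ) (Lb Tb : Subgroup X) [Group.IsNilpotent X],
    AFacts p σ Sg Qg Lg Lb Tb →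
    Tb = ⊤ ∧ (∃ t : ℕ, t.Prime ∧ t ≠ p ∧ IsPGroup t X) ∧ Group.nilpotencyClass X ≤ 2

/-- ABS-A1: the non-nilpotent case: `E(X) = X`. -/
def PkgAbsA1 : Prop :=
  ∀ {X Γ : Type u} [Group X] [Finite X] [Group Γ] [Finite Γ] {p : ℕ} [Fact p.Prime]
    (σ : Γ →* MulAut X) (Sg Qg Lg : Subgroup Γ) (Lb Tb : Subgroup X),
    AFacts p σ Sg Qg Lg Lb Tb → ¬ Group.IsNilpotent X → Cfsg.layer X = ⊤

/-- ABS-A2: `p ∣ |X|` when `E(X) = X`. -/
def PkgAbsA2 : Prop :=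
  ∀ {X Γ : Type u} [Group X] [Finite X] [Group Γ] [Finite Γ] {p : ℕ} [Fact p.Prime]
    (σ : Γ →* MulAut X) (Sg Qg Lg : Subgroup Γ) (Lb Tb : Subgroup X),
    AFacts p σ Sg Qg Lg Lb Tb → Cfsg.layer X = ⊤ → p ∣ Nat.card X

/-- ABS-A3: `S` is transitive on the components when `E(X) = X`. -/
def PkgAbsA3 : Prop :=
  ∀ {X Γ : Type u} [Group X] [Finite X] [Group Γ] [Finite Γ] {p : ℕ} [Fact p.Prime]
    (σ : Γ →* MulAut X) (Sg Qg Lg : Subgroup Γ) (Lb Tb : Subgroup X),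
    AFacts p σ Sg Qg Lg Lb Tb → ¬ Group.IsNilpotent X → Cfsg.layer X = ⊤ →
    ∀ K₁ K₂ : Subgroup X, Cfsg.IsComponent K₁ → Cfsg.IsComponent K₂ →
      ∃ s ∈ Sg, K₂ = K₁.map (σ s).toMonoidHom

/-- SOLV: a finite solvable group with `E(X) = X` is trivial, hence nilpotent. -/
def PkgSolvLayer : Prop :=
  ∀ {X : Type u} [Group X] [Finite X], Group.IsSolvable X → Cfsg.layer X = ⊤ → Group.IsNilpotent X

/-! ## `F*` packages -/

def PkgFstarNil : Prop :=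
  ∀ {G : Type u} [Group G] [Finite G] {p : ℕ} [Fact p.Prime] (Y : Subgroup G) [Y.Normal]
    [(Cfsg.pCore p ↥Y).Normal] [(Cfsg.pCore p G).Normal],
    Group.IsNilpotent (↥Y ⧸ Cfsg.pCore p ↥Y) →
    Y ≤ (Cfsg.generalizedFittingSubgroup (G ⧸ Cfsg.pCore p G)).comap (QuotientGroup.mk' (Cfsg.pCore p G))

def PkgFstarLay : Prop :=
  ∀ {G : Type u} [Group G] [Finite G] {p : ℕ} [Fact p.Prime] (Y : Subgroup G) [Y.Normal]
    [(Cfsg.pCore p ↥Y).Normal] [(Cfsg.pCore p G).Normal],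
    Cfsg.layer (↥Y ⧸ Cfsg.pCore p ↥Y) = ⊤ →
    Y ≤ (Cfsg.generalizedFittingSubgroup (G ⧸ Cfsg.pCore p G)).comap (QuotientGroup.mk' (Cfsg.pCore p G))

end Cfsg.Agent.Lib.Helper22.Iso
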