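import Mathlib
import Cfsg.Agent.Lib.Helper22.Iso.Defs
import Cfsg.Agent.Lib.Helper22.Layer
import Cfsg.Agent.Lib.Helper47.Subn

/-!
# Project ISO: package PkgDict3
-/

set_option autoImplicit false

namespace Cfsg.Agent.Lib.Helper22.Iso

universe u

section dict3

variable {G : Type u} [Group G] {p : ℕ} (Y : Subgroup G) [(Cfsg.pCore p ↥Y).Normal]

theorem coe_mem_pull_iff (K : Subgroup (↥Y ⧸ Cfsg.pCore p ↥Y)) (y : ↥Y) :
    (y : G) ∈ pull p Y K ↔ QuotientGroup.mk' (Cfsg.pCore p ↥Y) y ∈ K := by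
  constructor
  · intro h
    obtain ⟨y', hy', he⟩ := Subgroup.mem_map.1 h
    have : y' = y := Subtype.ext he
    rw [← this]
    exact hy'
  · intro h
    exact Subgroup.mem_map.2 ⟨y, h, rfl⟩

theorem pull_le (K : Subgroup (↥Y ⧸ Cfsg.pCore p ↥Y)) : pull p Y K ≤ Y := by
  intro x hx
  obtain ⟨y', -, rfl⟩ := Subgroup.mem_map.1 hx
  exact y'.2

variable [Y.Normal]

/-- the commutator element `y⁻¹ (q y q⁻¹)` lies in `Q` when `y` normalizes `Q`. -/
theorem comm_mem_Q {Q : Subgroup G} {q : G} (hq : q ∈ Q) (y : ↥Y)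
    (hy : (y : G) ∈ Subgroup.normalizer (Q : Set G)) :
    ((y⁻¹ * MulAut.conjNormal q y : ↥Y) : G) ∈ Q := by
  have h1 : ((y⁻¹ * MulAut.conjNormal q y : ↥Y) : G) = ((y : G)⁻¹ * q * ((y : G)⁻¹)⁻¹) * q⁻¹ := by
    rw [Subgroup.coe_mul, Subgroup.coe_inv, MulAut.conjNormal_apply]
    group
  rw [h1]
  have hy' : (y : G)⁻¹ ∈ Subgroup.normalizer (Q : Set G) := Subgroup.inv_mem _ hy
  exact Q.mul_mem ((Subgroup.mem_normalizer_iff.1 hy' q).1 hq) (Q.inv_mem hq)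

theorem fix_of_comm_mem {σ : G →* MulAut (↥Y ⧸ Cfsg.pCore p ↥Y)} (hσ : Compat p Y σ) (q : G) (y : ↥Y)
    (h : y⁻¹ * MulAut.conjNormal q y ∈ Cfsg.pCore p ↥Y) :
    σ q (QuotientGroup.mk' (Cfsg.pCore p ↥Y) y) = QuotientGroup.mk' (Cfsg.pCore p ↥Y) y := by
  rw [hσ q y]
  exact (QuotientGroup.eq.2 h).symm

end dict3

theorem pkgDict3 : PkgDict3.{u} := by
  intro G _ _ p _ S L Y T Q _ _ σ hσ kf
  have hp : p.Prime := Fact.out
  have hQp : IsPGroup p Q := S.isPGroup'.to_le kf.QS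
  have hQ'p : IsPGroup p (Q.subgroupOf Y) := hQp.comap_subtype
  -- common: `S`-invariant `W̄` not containing `push T` has `pull W̄ ≤ L`
  have hWL : ∀ W : Subgroup (↥Y ⧸ Cfsg.pCore p ↥Y),
      (∀ s ∈ (S : Subgroup G), ∀ x ∈ W, σ s x ∈ W) → ¬ push p Y T ≤ W → pull p Y W ≤ L := by
    intro W hW hT
    refine kf.inv (pull p Y W) ?_ ?_
    · refine Cfsg.Agent.Lib.Helper22.le_normalizer_of_conj_mem ?_
      intro s hs n hn
      obtain ⟨y', hy', rfl⟩ := Subgroup.mem_map.1 hn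
      have h1 : s * (Y.subtype y') * s⁻¹ = ((MulAut.conjNormal s y' : ↥Y) : G) := by
        rw [MulAut.conjNormal_apply]; rfl
      rw [h1, coe_mem_pull_iff, ← hσ s y']
      exact hW s hs _ hy'
    · intro hTW
      apply hT
      intro x hx
      obtain ⟨t', ht', rfl⟩ := Subgroup.mem_map.1 hx
      have h2 : (t' : G) ∈ pull p Y W := hTW (Subgroup.mem_subgroupOf.1 ht')
      exact (coe_mem_pull_iff Y W t').1 h2
  -- p'-case: elements of `Q ∩ Y` die in `Ȳ`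
  have hdie : ¬ p ∣ Nat.card (↥Y ⧸ Cfsg.pCore p ↥Y) → ∀ c : ↥Y, (c : G) ∈ Q →
      c ∈ Cfsg.pCore p ↥Y := by
    intro hpn c hc
    obtain ⟨k, hk⟩ := hQ'p ⟨c, Subgroup.mem_subgroupOf.2 hc⟩
    have hk' : c ^ p ^ k = 1 := by
      have := congrArg (Subtype.val) hk
      simpa using this
    have h1 : (QuotientGroup.mk' (Cfsg.pCore p ↥Y) c) ^ p ^ k = 1 := by
      rw [← map_pow, hk', map_one]
    have h2 : orderOf (QuotientGroup.mk' (Cfsg.pCore p ↥Y) c) ∣ p ^ k := orderOf_dvd_of_pow_eq_one h1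
    have h3 : orderOf (QuotientGroup.mk' (Cfsg.pCore p ↥Y) c) ∣ Nat.card (↥Y ⧸ Cfsg.pCore p ↥Y) :=
      orderOf_dvd_natCard _
    have hcop : Nat.Coprime (p ^ k) (Nat.card (↥Y ⧸ Cfsg.pCore p ↥Y)) :=
      Nat.Coprime.pow_left k ((Nat.Prime.coprime_iff_not_dvd hp).2 hpn)
    have h4 : orderOf (QuotientGroup.mk' (Cfsg.pCore p ↥Y) c) = 1 :=
      Nat.eq_one_of_dvd_coprimes hcop h2 h3
    rw [orderOf_eq_one_iff] at h4
    exact (QuotientGroup.eq_one_iff c).1 h4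
  refine ⟨?_, ?_, ?_⟩
  · -- invn
    intro W hWn hW
    by_cases hT : push p Y T ≤ W
    · exact Or.inl hT
    right
    have hL := hWL W hW hT
    intro q hq x hx
    obtain ⟨y, rfl⟩ := QuotientGroup.mk'_surjective (Cfsg.pCore p ↥Y) x
    apply fix_of_comm_mem Y hσ
    -- the subnormal p-subgroup `W' ⊓ Q'`
    set W' : Subgroup ↥Y := W.comap (QuotientGroup.mk' (Cfsg.pCore p ↥Y)) with hW'
    haveI hW'n : W'.Normal := hWn.comap _
    have hyW : (y : G) ∈ pull p Y W := (coe_mem_pull_iff Y W y).2 hx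
    have hA : (W' ⊓ Q.subgroupOf Y).IsSubnormal := by
      refine Subgroup.IsSubnormal.step _ W' inf_le_left hW'n.isSubnormal ?_
      rw [Subgroup.normal_subgroupOf_iff_le_normalizer inf_le_left]
      refine Cfsg.Agent.Lib.Helper22.le_normalizer_of_conj_mem ?_
      intro w hw a ha
      refine ⟨hW'n.conj_mem a ha.1 w, ?_⟩
      change ((w * a * w⁻¹ : ↥Y) : G) ∈ Q
      have hwL : (w : G) ∈ Subgroup.normalizer (Q : Set G) :=
        kf.LQ (hL ((coe_mem_pull_iff Y W w).2 hw))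
      have ha2 : (a : G) ∈ Q := Subgroup.mem_subgroupOf.1 ha.2
      have := (Subgroup.mem_normalizer_iff.1 hwL (a : G)).1 ha2
      simpa using this
    have hAp : IsPGroup p (W' ⊓ Q.subgroupOf Y : Subgroup ↥Y) := hQ'p.to_le inf_le_right
    refine Cfsg.Agent.Lib.Helper47.le_pCore_of_isSubnormal_of_isPGroup hA hAp ⟨?_, ?_⟩
    · -- in W'
      have h1 : QuotientGroup.mk' (Cfsg.pCore p ↥Y) (y⁻¹ * MulAut.conjNormal q y) ∈ W := by
        rw [map_mul, map_inv, ← hσ q y]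
        exact W.mul_mem (W.inv_mem hx) (hW q (kf.QS hq) _ hx)
      exact h1
    · change ((y⁻¹ * MulAut.conjNormal q y : ↥Y) : G) ∈ Q
      exact comm_mem_Q Y hq y (kf.LQ (hL hyW))
  · -- invp
    intro hpn W hW
    by_cases hT : push p Y T ≤ W
    · exact Or.inl hT
    right
    have hL := hWL W hW hT
    intro q hq x hx
    obtain ⟨y, rfl⟩ := QuotientGroup.mk'_surjective (Cfsg.pCore p ↥Y) x
    apply fix_of_comm_mem Y hσ
    have hyW : (y : G) ∈ pull p Y W := (coe_mem_pull_iff Y W y).2 hx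
    exact hdie hpn _ (comm_mem_Q Y hq y (kf.LQ (hL hyW)))
  · -- QL
    intro hpn q hq x hx
    obtain ⟨y, hy, rfl⟩ := Subgroup.mem_map.1 hx
    apply fix_of_comm_mem Y hσ
    exact hdie hpn _ (comm_mem_Q Y hq y (kf.LQ (Subgroup.mem_subgroupOf.1 hy)))

end Cfsg.Agent.Lib.Helper22.Iso
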