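import Mathlib
import Cfsg.Agent.Lib.Helper22.Iso.Defs
import Cfsg.Agent.Lib.Helper55.Cores
import Cfsg.Agent.Lib.Helper48.Cores

/-!
# Project ISO: assembly of S3044 / S3045 from the packages
-/

set_option autoImplicit false

namespace Cfsg.Agent.Lib.Helper22.Iso

universe u

variable {G : Type u} [Group G]

theorem le_opOf {p : ℕ} {Q H : Subgroup G} (hQH : Q ≤ H) (hQ : IsPGroup p Q)
    (hN : H ≤ Subgroup.normalizer (Q : Set G)) : Q ≤ opOf p H := by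
  have hn : (Q.subgroupOf H).Normal := (Subgroup.normal_subgroupOf_iff_le_normalizer hQH).2 hN
  have hp : IsPGroup p (Q.subgroupOf H) := hQ.comap_subtype
  have h := Cfsg.Agent.Lib.Helper55.le_pCore hn hp
  intro x hx
  exact ⟨⟨x, hQH hx⟩, h (by simpa [Subgroup.mem_subgroupOf] using hx), rfl⟩

/-- The packages used by the final assembly. -/
structure Pkgs : Prop where
  k1 : PkgK1.{u}
  k2 : PkgK2.{u}
  k3 : PkgK3.{u}
  yt : PkgYT.{u}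
  act : PkgAct.{u}
  d1 : PkgDict1.{u}
  d2 : PkgDict2.{u}
  d3 : PkgDict3.{u}
  back : PkgBack.{u}
  absB : PkgAbsB.{u}
  absA1 : PkgAbsA1.{u}
  absA2 : PkgAbsA2.{u}
  absA3 : PkgAbsA3.{u}
  solv : PkgSolvLayer.{u}
  fnil : PkgFstarNil.{u}
  flay : PkgFstarLay.{u}

theorem kfacts (h : Pkgs.{u}) [Finite G] {p : ℕ} [Fact p.Prime] (S : Sylow p G)
    (P L Y : Subgroup G) (hs : Setup p S P L Y) : KFacts p S L Y (resid p P) (opOf p L) :=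
  ⟨h.k1 S P L Y hs, h.k2 S P L Y hs, h.k3 S P L Y hs⟩

/-- The dichotomy. -/
theorem core (h : Pkgs.{u}) [Finite G] {p : ℕ} [Fact p.Prime] (S : Sylow p G)
    (P L Y : Subgroup G) (hs : Setup p S P L Y) [Y.Normal] [(Cfsg.pCore p ↥Y).Normal] :
    (resid p P = Y ∧ (∃ t : ℕ, t.Prime ∧ t ≠ p ∧ IsPGroup t (↥Y ⧸ Cfsg.pCore p ↥Y) ∧
        ∃ _ : Group.IsNilpotent (↥Y ⧸ Cfsg.pCore p ↥Y),
          Group.nilpotencyClass (↥Y ⧸ Cfsg.pCore p ↥Y) ≤ 2)) ∨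
    (¬ Group.IsNilpotent (↥Y ⧸ Cfsg.pCore p ↥Y) ∧ p ∣ Nat.card (↥Y ⧸ Cfsg.pCore p ↥Y) ∧
      Cfsg.layer (↥Y ⧸ Cfsg.pCore p ↥Y) = ⊤ ∧
      ∀ K₁ K₂ : Subgroup (↥Y ⧸ Cfsg.pCore p ↥Y), Cfsg.IsComponent K₁ → Cfsg.IsComponent K₂ →
        ∃ s ∈ (S : Subgroup G), pull p Y K₂ = (pull p Y K₁).map (MulAut.conj s).toMonoidHom) := by
  have kf := kfacts h S P L Y hs
  obtain ⟨σ, hσ⟩ := h.act p Y
  have af : AFacts p σ (S : Subgroup G) (opOf p L) L (push p Y L) (push p Y (resid p P)) :=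
    ⟨h.d1 S L Y _ _ σ hσ kf, h.d2 S L Y _ _ σ hσ kf, h.d3 S L Y _ _ σ hσ kf⟩
  have hb := h.back Y (resid p P) σ hσ
  by_cases hnil : Group.IsNilpotent (↥Y ⧸ Cfsg.pCore p ↥Y)
  · left
    obtain ⟨h1, ⟨t, ht, htp, htX⟩, h3⟩ := h.absB σ (S : Subgroup G) (opOf p L) L _ _ af
    refine ⟨?_, t, ht, htp, htX, hnil, h3⟩
    exact h.yt S P Y hs.hSP hs.hY (hb.1 kf.TY h1)
  · right
    have hlay := h.absA1 σ (S : Subgroup G) (opOf p L) L _ _ af hnil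
    refine ⟨hnil, h.absA2 σ (S : Subgroup G) (opOf p L) L _ _ af hlay, hlay, ?_⟩
    intro K₁ K₂ hK₁ hK₂
    obtain ⟨s, hs, hK⟩ := h.absA3 σ (S : Subgroup G) (opOf p L) L _ _ af hnil hlay K₁ K₂ hK₁ hK₂
    refine ⟨s, hs, ?_⟩
    rw [hK]
    exact hb.2 s K₁

theorem main3044 (h : Pkgs.{u}) [Finite G] {p : ℕ} [Fact p.Prime] (S : Sylow p G) (P : Subgroup G) (hSP : (S : Subgroup G) ≤ P) (hPmin : Cfsg.IsPMinimal p ↥P)
    (L Y : Subgroup G)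
    (hL : L = Subgroup.normalizer ((S : Subgroup G) : Set G) ⊔ ⨆ P' : {P' : Subgroup G // (S : Subgroup G) ≤ P' ∧ Cfsg.IsPMinimal p ↥P' ∧ P' ≠ P}, (P' : Subgroup G))
    (hiso : ¬ (Cfsg.pCore p ↥L).map L.subtype ≤ (Cfsg.pCore p ↥P).map P.subtype)
    (hY : Y = Subgroup.normalClosure (((Cfsg.pResidual p ↥P).map P.subtype : Subgroup G) : Set G)) :
    Y ⊔ L = ⊤ ∧
    ¬ (Cfsg.pCore p ↥((Subgroup.normalizer ((S : Subgroup G) : Set G) ⊓ (Y ⊔ (S : Subgroup G))) ⊔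
          ⨆ P' : {P' : Subgroup G // (S : Subgroup G) ≤ P' ∧ P' ≤ Y ⊔ (S : Subgroup G) ∧ Cfsg.IsPMinimal p ↥P' ∧ P' ≠ P}, (P' : Subgroup G))).map
        (Subgroup.subtype _) ≤ (Cfsg.pCore p ↥P).map P.subtype ∧
    ((Cfsg.pResidual p ↥P).map P.subtype = Y ∨
     ∃ _ : (Cfsg.pCore p ↥Y).Normal,
       p ∣ Nat.card (↥Y ⧸ Cfsg.pCore p ↥Y) ∧ Cfsg.layer (↥Y ⧸ Cfsg.pCore p ↥Y) = ⊤ ∧
       ∀ K₁ K₂ : Subgroup (↥Y ⧸ Cfsg.pCore p ↥Y), Cfsg.IsComponent K₁ → Cfsg.IsComponent K₂ →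
         ∃ s ∈ (S : Subgroup G), ((K₂.comap (QuotientGroup.mk' (Cfsg.pCore p ↥Y))).map Y.subtype) = (((K₁.comap (QuotientGroup.mk' (Cfsg.pCore p ↥Y))).map Y.subtype)).map (MulAut.conj s).toMonoidHom) := by
  have hs : Setup p S P L Y := ⟨hSP, hPmin, hL, hiso, hY⟩
  have kf := kfacts h S P L Y hs
  haveI : Y.Normal := by rw [hY]; exact Subgroup.normalClosure_normal
  haveI hnY : (Cfsg.pCore p ↥Y).Normal := Cfsg.Agent.Lib.Helper48.pCore_normal' p ↥Y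
  refine ⟨kf.YL, ?_, ?_⟩
  · intro hle
    apply hiso
    refine le_trans ?_ hle
    have hL0 : (Subgroup.normalizer ((S : Subgroup G) : Set G) ⊓ (Y ⊔ (S : Subgroup G))) ⊔
          ⨆ P' : {P' : Subgroup G // (S : Subgroup G) ≤ P' ∧ P' ≤ Y ⊔ (S : Subgroup G) ∧ Cfsg.IsPMinimal p ↥P' ∧ P' ≠ P}, (P' : Subgroup G) ≤ L := by
      rw [hL]
      refine sup_le (inf_le_left.trans le_sup_left) (iSup_le fun P' => ?_)
      exact le_sup_of_le_right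
        (le_iSup_of_le (⟨P'.1, P'.2.1, P'.2.2.2.1, P'.2.2.2.2⟩ :
          {P' : Subgroup G // (S : Subgroup G) ≤ P' ∧ Cfsg.IsPMinimal p ↥P' ∧ P' ≠ P}) le_rfl)
    have hS0 : (S : Subgroup G) ≤ (Subgroup.normalizer ((S : Subgroup G) : Set G) ⊓ (Y ⊔ (S : Subgroup G))) ⊔
          ⨆ P' : {P' : Subgroup G // (S : Subgroup G) ≤ P' ∧ P' ≤ Y ⊔ (S : Subgroup G) ∧ Cfsg.IsPMinimal p ↥P' ∧ P' ≠ P}, (P' : Subgroup G) :=
      le_sup_of_le_left (le_inf Subgroup.le_normalizer le_sup_right)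
    exact le_opOf (kf.QS.trans hS0) (S.isPGroup'.to_le kf.QS) (hL0.trans kf.LQ)
  · rcases core h S P L Y hs with ⟨h1, -⟩ | ⟨-, h2, h3, h4⟩
    · exact Or.inl h1
    · exact Or.inr ⟨hnY, h2, h3, h4⟩

theorem main3045 (h : Pkgs.{u}) [Finite G] {p : ℕ} [Fact p.Prime] (S : Sylow p G) (P : Subgroup G) (hSP : (S : Subgroup G) ≤ P) (hPmin : Cfsg.IsPMinimal p ↥P)
    (L Y : Subgroup G)
    (hL : L = Subgroup.normalizer ((S : Subgroup G) : Set G) ⊔ ⨆ P' : {P' : Subgroup G // (S : Subgroup G) ≤ P' ∧ Cfsg.IsPMinimal p ↥P' ∧ P' ≠ P}, (P' : Subgroup G))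
    (hiso : ¬ (Cfsg.pCore p ↥L).map L.subtype ≤ (Cfsg.pCore p ↥P).map P.subtype)
    (hY : Y = Subgroup.normalClosure (((Cfsg.pResidual p ↥P).map P.subtype : Subgroup G) : Set G)) [hn : (Cfsg.pCore p G).Normal] :
    (Cfsg.pResidual p ↥P).map P.subtype ≤ (Cfsg.generalizedFittingSubgroup (G ⧸ Cfsg.pCore p G)).comap (QuotientGroup.mk' (Cfsg.pCore p G)) ∧
    (Group.IsSolvable ↥Y → (Cfsg.pResidual p ↥P).map P.subtype = Y ∧
       ∃ _ : (Cfsg.pCore p ↥Y).Normal, ∃ t : ℕ, t.Prime ∧ t ≠ p ∧ IsPGroup t (↥Y ⧸ Cfsg.pCore p ↥Y) ∧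
         ∃ _ : Group.IsNilpotent (↥Y ⧸ Cfsg.pCore p ↥Y), Group.nilpotencyClass (↥Y ⧸ Cfsg.pCore p ↥Y) ≤ 2) := by
  have hs : Setup p S P L Y := ⟨hSP, hPmin, hL, hiso, hY⟩
  have kf := kfacts h S P L Y hs
  haveI : Y.Normal := by rw [hY]; exact Subgroup.normalClosure_normal
  haveI hnY : (Cfsg.pCore p ↥Y).Normal := Cfsg.Agent.Lib.Helper48.pCore_normal' p ↥Y
  have hc := core h S P L Y hs
  refine ⟨?_, ?_⟩
  · refine kf.TY.trans ?_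
    rcases hc with ⟨-, t, -, -, -, hnil, -⟩ | ⟨-, -, h3, -⟩
    · exact h.fnil Y hnil
    · exact h.flay Y h3
  · intro hsolv
    rcases hc with ⟨h1, t, ht, htp, htX, hnil, h3⟩ | ⟨hnn, -, h3, -⟩
    · exact ⟨h1, hnY, t, ht, htp, htX, hnil, h3⟩
    · exact absurd (h.solv inferInstance h3) hnn

end Cfsg.Agent.Lib.Helper22.Iso
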